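import Mathlib
import Cfsg.Agent.H229.NX.Label

/-!
# S4816, box EXC: the permutation group core, parts (5) and (6) (helper600)
-/

set_option autoImplicit false
set_option linter.unusedSectionVars false

open Equiv Equiv.Perm MulAction Cfsg.Agent.H229.NX

namespace Cfsg.Agent.H600.RIM.Exc

/-- An even permutation fixing `F` pointwise is a product of three-cycles fixing `F` pointwise. -/
theorem mem_closure_three {α : Type*} [Fintype α] [DecidableEq α] (F : Set α) {σ : Perm α}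
    (hσ : σ ∈ alternatingGroup α) (hF : ∀ x ∈ F, σ x = x) :
    σ ∈ Subgroup.closure {c : Perm α | c.IsThreeCycle ∧ ∀ x ∈ F, c x = x} := by
  classical
  have hp : ∀ x, (σ x ∉ F) ↔ (x ∉ F) := by
    intro x
    refine not_congr ⟨fun h => ?_, fun h => by rw [hF x h]; exact h⟩
    have h1 := hF _ h
    rw [σ.injective h1] at h
    exact h
  let σ' : Perm {x // x ∉ F} := σ.subtypePerm hp
  have h1 : ofSubtype σ' = σ := ofSubtype_subtypePerm hp (fun x hx h => hx (hF x h))
  have h2 : σ' ∈ alternatingGroup {x // x ∉ F} := by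
    rw [mem_alternatingGroup] at hσ ⊢
    rw [← hσ, ← h1, sign_ofSubtype]
  rw [← closure_three_cycles_eq_alternating] at h2
  rw [← h1]
  have h3 := Subgroup.mem_map_of_mem (ofSubtype : Perm {x // x ∉ F} →* Perm α) h2
  rw [MonoidHom.map_closure] at h3
  refine Subgroup.closure_mono ?_ h3
  rintro _ ⟨c, hc, rfl⟩
  refine ⟨?_, fun x hx => ofSubtype_apply_of_not_mem c (not_not.2 hx)⟩
  have h4 : c.cycleType = {3} := hc
  show (ofSubtype c).cycleType = {3}
  rw [cycleType_ofSubtype, h4]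

/-- the stabilizers of points in `A_m` have no subgroups of index two -/
theorem hom_one {G : Type*} [Group G] {m : ℕ} (φ : G →* Perm (Fin m)) (D : Subgroup G)
    (τ : D →* Multiplicative (ZMod 2)) (F : Set (Fin m)) (hF : ∀ d ∈ D, ∀ x ∈ F, φ d x = x)
    (hA : ∀ d ∈ D, φ d ∈ alternatingGroup (Fin m))
    (hD : ∀ σ ∈ alternatingGroup (Fin m), (∀ x ∈ F, σ x = x) → ∃ d ∈ D, φ d = σ)
    (hk : ∀ d : D, φ d = 1 → τ d = 1) (d : D) : τ d = 1 := by
  classical
  let ψ : D →* Perm (Fin m) := φ.comp D.subtype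
  have hle : Subgroup.closure {c : Perm (Fin m) | c.IsThreeCycle ∧ ∀ x ∈ F, c x = x} ≤ τ.ker.map ψ := by
    rw [Subgroup.closure_le]
    rintro c ⟨hc, hcF⟩
    obtain ⟨d, hd, rfl⟩ := hD c hc.mem_alternatingGroup hcF
    refine ⟨⟨d, hd⟩, ?_, rfl⟩
    have h1 : τ (⟨d, hd⟩ ^ 3) = 1 := by
      apply hk
      show φ (d ^ 3) = 1
      rw [map_pow]
      have := hc.orderOf
      rw [← this]
      exact pow_orderOf_eq_one _
    rw [map_pow] at h1
    have h2 : ∀ z : Multiplicative (ZMod 2), z ^ 3 = 1 → z = 1 := by decide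
    exact h2 _ h1
  obtain ⟨k, hk1, hk2⟩ := hle (mem_closure_three F (hA d d.2) (hF d d.2))
  have h1 : τ (d * k⁻¹) = 1 := by
    apply hk
    show ψ (d * k⁻¹) = 1
    rw [map_mul, map_inv, hk2]
    exact mul_inv_cancel _
  rw [map_mul, map_inv, MonoidHom.mem_ker.1 hk1, inv_one, mul_one] at h1
  exact h1

section

variable {G Ω : Type*} [Group G] [MulAction G Ω] (κ : G → Ω → ZMod 2)
  (hκ : ∀ g h ω, κ (g * h) ω = κ g (h • ω) + κ h ω)

include hκ

theorem k_one (ω : Ω) : κ 1 ω = 0 := by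
  have h := hκ 1 1 ω
  rw [one_smul, mul_one] at h
  exact left_eq_add.1 h

theorem k_inv (g : G) (ω : Ω) : κ g⁻¹ (g • ω) = κ g ω := by
  have h := hκ g⁻¹ g ω
  rw [inv_mul_cancel, k_one κ hκ] at h
  have h2 : ∀ a b : ZMod 2, 0 = a + b → a = b := by decide
  exact h2 _ _ h

theorem k_conj (g n : G) (hn : ∀ ω : Ω, n • ω = ω) (ω : Ω) : κ (g⁻¹ * n * g) ω = κ n (g • ω) := by
  rw [hκ, hκ, hn, k_inv κ hκ]
  have h2 : ∀ a b : ZMod 2, a + b + a = b := by decide
  exact h2 _ _

/-- the values of `κ` on the kernel of the action -/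
def VV : AddSubgroup (Ω → ZMod 2) where
  carrier := {v | ∃ n : G, (∀ ω : Ω, n • ω = ω) ∧ κ n = v}
  zero_mem' := ⟨1, fun ω => one_smul _ _, funext fun ω => k_one κ hκ ω⟩
  add_mem' := by
    rintro _ _ ⟨a, ha, rfl⟩ ⟨b, hb, rfl⟩
    refine ⟨a * b, fun ω => by rw [mul_smul, hb, ha], funext fun ω => ?_⟩
    rw [hκ, hb]
    rfl
  neg_mem' := by
    rintro _ ⟨a, ha, rfl⟩
    refine ⟨a, ha, funext fun ω => ?_⟩
    have h2 : ∀ a : ZMod 2, a = -a := by decide
    exact h2 _

theorem VV_smul (g : G) {v : Ω → ZMod 2} (hv : v ∈ VV κ hκ) : (fun ω => v (g • ω)) ∈ VV κ hκ := by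
  obtain ⟨n, hn, rfl⟩ := hv
  refine ⟨g⁻¹ * n * g, fun ω => ?_, funext fun ω => k_conj κ hκ g n hn ω⟩
  rw [mul_smul, mul_smul, hn, inv_smul_smul]

end

section

variable {G Ω : Type*} [Group G] [MulAction G Ω] {m : ℕ} (e : Ω ≃ Fin m) (φ : G →* Perm (Fin m))
  (hφ : φ.range = alternatingGroup (Fin m)) (he : ∀ g ω, φ g (e ω) = e (g • ω))

include he in
theorem triv_iff (g : G) : φ g = 1 ↔ ∀ ω : Ω, g • ω = ω := by
  constructor
  · intro h ω
    apply e.injective
    rw [← he, h]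
    rfl
  · intro h
    ext i
    obtain ⟨ω, rfl⟩ := e.surjective i
    rw [he, h]
    rfl

include hφ he in
theorem exists_three {i j k : Ω} (hij : i ≠ j) (hik : i ≠ k) (hjk : j ≠ k) :
    ∃ g : G, g • i = j ∧ g • j = k ∧ g • k = i ∧ ∀ x, x ≠ i → x ≠ j → x ≠ k → g • x = x := by
  classical
  have h1 : swap (e i) (e j) * swap (e j) (e k) ∈ φ.range := by
    rw [hφ, mem_alternatingGroup, Perm.sign_mul, sign_swap (e.injective.ne hij), sign_swap (e.injective.ne hjk)]
    rfl
  obtain ⟨g, hg⟩ := h1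
  refine ⟨g, ?_, ?_, ?_, fun x h1 h2 h3 => ?_⟩ <;> apply e.injective <;> rw [← he, hg, Perm.mul_apply]
  · rw [swap_apply_of_ne_of_ne (e.injective.ne hij) (e.injective.ne hik), swap_apply_left]
  · rw [swap_apply_left, swap_apply_of_ne_of_ne (e.injective.ne hik.symm) (e.injective.ne hjk.symm)]
  · rw [swap_apply_right, swap_apply_right]
  · rw [swap_apply_of_ne_of_ne (e.injective.ne h2) (e.injective.ne h3),
      swap_apply_of_ne_of_ne (e.injective.ne h1) (e.injective.ne h2)]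

variable (κ : G → Ω → ZMod 2) (hκ : ∀ g h ω, κ (g * h) ω = κ g (h • ω) + κ h ω)

include hφ he in
/-- **(5)**, first half -/
theorem single_mem [DecidableEq Ω] {v : Ω → ZMod 2} (hv : v ∈ VV κ hκ) {i j k : Ω} (hvij : v i ≠ v j) (hik : i ≠ k) (hjk : j ≠ k) :
    (Pi.single i 1 + Pi.single j 1 : Ω → ZMod 2) ∈ VV κ hκ ∧ (Pi.single i 1 + Pi.single k 1 : Ω → ZMod 2) ∈ VV κ hκ := by
  have hij : i ≠ j := fun h => hvij (by rw [h])
  obtain ⟨g, g1, g2, g3, g4⟩ := exists_three e φ hφ he hij hik hjk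
  obtain ⟨t, t1, t2, t3, t4⟩ := exists_three e φ hφ he hik hij hjk.symm
  have hw := (VV κ hκ).add_mem (VV_smul κ hκ g hv) hv
  have hu := (VV κ hκ).add_mem (VV_smul κ hκ t hv) hv
  have hd : ∀ a b : ZMod 2, a ≠ b → a + b = 1 := by decide
  have hd2 : ∀ a : ZMod 2, a + a = 0 := by decide
  have hd3 : ∀ a b c : ZMod 2, a ≠ b → c ≠ a → c = b := by decide
  by_cases hk : v k = v i
  · have e1 : (fun ω => v (g • ω)) + v = (Pi.single i 1 + Pi.single j 1 : Ω → ZMod 2) := by
      funext x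
      simp only [Pi.add_apply]
      by_cases hxi : x = i
      · subst hxi
        rw [g1, Pi.single_eq_same, Pi.single_eq_of_ne hij, add_zero]
        exact hd _ _ hvij.symm
      by_cases hxj : x = j
      · subst hxj
        rw [g2, Pi.single_eq_same, Pi.single_eq_of_ne hij.symm, zero_add, hk]
        exact hd _ _ hvij
      rw [Pi.single_eq_of_ne hxi, Pi.single_eq_of_ne hxj, add_zero]
      by_cases hxk : x = k
      · subst hxk
        rw [g3, hk]
        exact hd2 _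
      · rw [g4 x hxi hxj hxk]
        exact hd2 _
    have e2 : (fun ω => v (t • ω)) + v = (Pi.single k 1 + Pi.single j 1 : Ω → ZMod 2) := by
      funext x
      simp only [Pi.add_apply]
      by_cases hxi : x = i
      · subst hxi
        rw [t1, Pi.single_eq_of_ne hik, Pi.single_eq_of_ne hij, hk, hd2, add_zero]
      by_cases hxj : x = j
      · subst hxj
        rw [t3, Pi.single_eq_same, Pi.single_eq_of_ne hjk, zero_add]
        exact hd _ _ hvij
      rw [Pi.single_eq_of_ne hxj, add_zero]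
      by_cases hxk : x = k
      · subst hxk
        rw [t2, Pi.single_eq_same, hk]
        exact hd _ _ hvij.symm
      · rw [t4 x hxi hxk hxj, Pi.single_eq_of_ne hxk]
        exact hd2 _
    rw [e1] at hw
    rw [e2] at hu
    refine ⟨hw, ?_⟩
    have h3 := (VV κ hκ).add_mem hw hu
    have h4 : (Pi.single i 1 + Pi.single j 1 : Ω → ZMod 2) + (Pi.single k 1 + Pi.single j 1) =
        Pi.single i 1 + Pi.single k 1 := by
      have h5 : (Pi.single j 1 : Ω → ZMod 2) + Pi.single j 1 = 0 := by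
        funext x
        exact hd2 _
      calc (Pi.single i 1 + Pi.single j 1 : Ω → ZMod 2) + (Pi.single k 1 + Pi.single j 1)
          = Pi.single i 1 + Pi.single k 1 + (Pi.single j 1 + Pi.single j 1) := by abel
        _ = _ := by rw [h5, add_zero]
    rwa [h4] at h3
  · have hk' : v k = v j := hd3 _ _ _ hvij hk
    have e1 : (fun ω => v (g • ω)) + v = (Pi.single i 1 + Pi.single k 1 : Ω → ZMod 2) := by
      funext x
      simp only [Pi.add_apply]
      by_cases hxi : x = i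
      · subst hxi
        rw [g1, Pi.single_eq_same, Pi.single_eq_of_ne hik, add_zero]
        exact hd _ _ hvij.symm
      by_cases hxj : x = j
      · subst hxj
        rw [g2, Pi.single_eq_of_ne hij.symm, Pi.single_eq_of_ne hjk, hk', hd2, add_zero]
      rw [Pi.single_eq_of_ne hxi, zero_add]
      by_cases hxk : x = k
      · subst hxk
        rw [g3, Pi.single_eq_same]
        exact hd _ _ fun h => hk h.symm
      · rw [g4 x hxi hxj hxk, Pi.single_eq_of_ne hxk]
        exact hd2 _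
    have e2 : (fun ω => v (t • ω)) + v = (Pi.single i 1 + Pi.single j 1 : Ω → ZMod 2) := by
      funext x
      simp only [Pi.add_apply]
      by_cases hxi : x = i
      · subst hxi
        rw [t1, Pi.single_eq_same, Pi.single_eq_of_ne hij, add_zero]
        exact hd _ _ hk
      by_cases hxj : x = j
      · subst hxj
        rw [t3, Pi.single_eq_same, Pi.single_eq_of_ne hij.symm, zero_add]
        exact hd _ _ hvij
      rw [Pi.single_eq_of_ne hxi, Pi.single_eq_of_ne hxj, add_zero]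
      by_cases hxk : x = k
      · subst hxk
        rw [t2, hk']
        exact hd2 _
      · rw [t4 x hxi hxk hxj]
        exact hd2 _
    rw [e1] at hw
    rw [e2] at hu
    exact ⟨hu, hw⟩

include hκ in
/-- there is no homomorphism onto `ZMod 2` -/
theorem sum_zero [Finite G] [Fintype Ω]
    (hN : ∀ N : Subgroup G, N.Normal → (∀ g : G, (∀ ω : Ω, g • ω = ω ∧ κ g ω = 0) → g ∈ N) → N ≠ ⊤ → 5 ∣ N.index)
    (g : G) : ∑ ω, κ g ω = 0 := by
  classical
  let lam : G →* Multiplicative (ZMod 2) :=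
    { toFun := fun g => Multiplicative.ofAdd (∑ ω, κ g ω)
      map_one' := by
        rw [Finset.sum_congr rfl fun ω _ => k_one κ hκ ω, Finset.sum_const_zero]
        rfl
      map_mul' := by
        intro a b
        rw [← ofAdd_add, Finset.sum_congr rfl fun ω _ => hκ a b ω, Finset.sum_add_distrib]
        congr 2
        exact Equiv.sum_comp (MulAction.toPerm b : Perm Ω) (fun ω => κ a ω) }
  by_cases h : lam.ker = ⊤
  · have h1 : g ∈ lam.ker := by rw [h]; trivial
    exact h1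
  · have h1 := hN lam.ker inferInstance (fun x hx => by
      rw [MonoidHom.mem_ker]
      show Multiplicative.ofAdd (∑ ω, κ x ω) = 1
      rw [Finset.sum_congr rfl fun ω _ => (hx ω).2, Finset.sum_const_zero]
      rfl) h
    rw [Subgroup.index_ker] at h1
    have h2 := Subgroup.card_subgroup_dvd_card lam.range
    rw [Nat.card_eq_fintype_card (α := Multiplicative (ZMod 2)), Fintype.card_multiplicative, ZMod.card] at h2
    have h3 := Nat.le_of_dvd (by norm_num) (h1.trans h2)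
    omega

include hφ he in
/-- **(5)** -/
theorem case_one [Finite G] [Finite Ω] (hm : 9 ≤ m)
    (hN : ∀ N : Subgroup G, N.Normal → (∀ g : G, (∀ ω : Ω, g • ω = ω ∧ κ g ω = 0) → g ∈ N) → N ≠ ⊤ → 5 ∣ N.index)
    {v : Ω → ZMod 2} (hv : v ∈ VV κ hκ) {i j : Ω} (hvij : v i ≠ v j) (g : G) :
    ∃ h, (∀ ω : Ω, κ h ω = 0) ∧ φ h = φ g := by
  classical
  let _ := Fintype.ofFinite Ω
  have hij : i ≠ j := fun h => hvij (by rw [h])
  have hcard : 3 ≤ Fintype.card Ω := by
    rw [Fintype.card_congr e, Fintype.card_fin]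
    omega
  have hk : ∀ k : Ω, (Pi.single i 1 + Pi.single k 1 : Ω → ZMod 2) ∈ VV κ hκ := by
    intro k
    by_cases hik : i = k
    · subst hik
      have h5 : (Pi.single i 1 : Ω → ZMod 2) + Pi.single i 1 = 0 := by
        funext x
        have hd2 : ∀ a : ZMod 2, a + a = 0 := by decide
        exact hd2 _
      rw [h5]
      exact (VV κ hκ).zero_mem
    by_cases hjk : j = k
    · subst hjk
      obtain ⟨l, hl⟩ : ∃ l, l ∉ ({i, j} : Finset Ω) := by
        by_contra hcon
        push Not at hcon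
        have h1 : Fintype.card Ω ≤ ({i, j} : Finset Ω).card := Finset.card_le_card fun x _ => hcon x
        have h2 := Finset.card_le_two (a := i) (b := j)
        omega
      rw [Finset.mem_insert, Finset.mem_singleton, not_or] at hl
      exact (single_mem e φ hφ he κ hκ hv hvij (Ne.symm hl.1) (Ne.symm hl.2)).1
    · exact (single_mem e φ hφ he κ hκ hv hvij hik hjk).2
  have hall : ∀ w : Ω → ZMod 2, ∑ ω, w ω = 0 → w ∈ VV κ hκ := by
    intro w hw
    have h1 : w = ∑ k, w k • (Pi.single i 1 + Pi.single k 1 : Ω → ZMod 2) := by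
      simp only [smul_add, Finset.sum_add_distrib, ← Finset.sum_smul, hw, zero_smul, zero_add]
      funext x
      rw [Finset.sum_apply, Finset.sum_eq_single x]
      · simp
      · intro b _ hb
        simp [Ne.symm hb]
      · intro h
        exact absurd (Finset.mem_univ x) h
    rw [h1]
    refine AddSubgroup.sum_mem _ fun k _ => ?_
    have hd : ∀ a : ZMod 2, a = 0 ∨ a = 1 := by decide
    rcases hd (w k) with h | h
    · rw [h, zero_smul]
      exact (VV κ hκ).zero_mem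
    · rw [h, one_smul]
      exact hk k
  obtain ⟨n, hn, hn'⟩ := hall (fun ω => κ g (g⁻¹ • ω)) (by
    rw [← sum_zero κ hκ hN g]
    exact Equiv.sum_comp (MulAction.toPerm g⁻¹ : Perm Ω) (fun ω => κ g ω))
  refine ⟨n * g, fun ω => ?_, ?_⟩
  · rw [hκ, hn']
    simp only [inv_smul_smul]
    have hd2 : ∀ a : ZMod 2, a + a = 0 := by decide
    exact hd2 _
  · rw [map_mul, (triv_iff e φ he n).2 hn, one_mul]

include hφ he in
/-- if the kernel of the action is contained in the kernel on the pairs, the double cover splits: impossible -/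
theorem case_two [Finite G] (hV : ∀ v ∈ VV κ hκ, v = 0) (ω₀ : Ω) (g : G) (hg : g • ω₀ = ω₀) : κ g ω₀ = 0 := by
  classical
  let D : Subgroup G := stabilizer G ω₀
  let τ : D →* Multiplicative (ZMod 2) :=
    { toFun := fun g => Multiplicative.ofAdd (κ g ω₀)
      map_one' := by
        show Multiplicative.ofAdd (κ 1 ω₀) = 1
        rw [k_one κ hκ]
        rfl
      map_mul' := by
        intro a b
        rw [← ofAdd_add]
        show Multiplicative.ofAdd (κ ((a : G) * b) ω₀) = _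
        rw [hκ, mem_stabilizer_iff.1 b.2] }
  have h1 := hom_one φ D τ {e ω₀} (fun d hd x hx => by
      rw [Set.mem_singleton_iff] at hx
      subst hx
      rw [he, mem_stabilizer_iff.1 hd]) (fun d _ => by rw [← hφ]; exact ⟨d, rfl⟩)
    (fun σ hσ hσF => by
      rw [← hφ] at hσ
      obtain ⟨d, rfl⟩ := hσ
      refine ⟨d, ?_, rfl⟩
      rw [mem_stabilizer_iff]
      apply e.injective
      rw [← he]
      exact hσF _ rfl) (fun d hd => by
      have h2 := hV (κ d) ⟨d, (triv_iff e φ he d).1 hd, rfl⟩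
      show Multiplicative.ofAdd (κ d ω₀) = 1
      rw [h2]
      rfl) ⟨g, hg⟩
  exact h1

include hφ he in
/-- the elements of `B` fixing `ω'` fix the orientations of `ω'` -/
theorem case_three_fix [Finite G] (hV : ∀ v ∈ VV κ hκ, ∀ i j, v i = v j) {n₁ : G} (hn₁ : ∀ ω : Ω, n₁ • ω = ω)
    (hn : ∀ ω, κ n₁ ω = 1) (ω₀ ω' : Ω) (g : G) (hg : g • ω₀ = ω₀) (hg' : g • ω' = ω') (hg0 : κ g ω₀ = 0) :
    κ g ω' = 0 := by
  classical
  let D : Subgroup G :=
    { carrier := {g | (g • ω₀ = ω₀ ∧ κ g ω₀ = 0) ∧ g • ω' = ω'}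
      one_mem' := ⟨⟨one_smul _ _, k_one κ hκ _⟩, one_smul _ _⟩
      mul_mem' := by
        rintro a b ⟨⟨ha1, ha2⟩, ha3⟩ ⟨⟨hb1, hb2⟩, hb3⟩
        refine ⟨⟨by rw [mul_smul, hb1, ha1], ?_⟩, by rw [mul_smul, hb3, ha3]⟩
        rw [hκ, hb1, ha2, hb2, add_zero]
      inv_mem' := by
        rintro a ⟨⟨ha1, ha2⟩, ha3⟩
        refine ⟨⟨inv_smul_eq_iff.2 ha1.symm, ?_⟩, inv_smul_eq_iff.2 ha3.symm⟩
        have h := k_inv κ hκ a ω₀
        rw [ha1] at h
        rw [h, ha2] }
  let τ : D →* Multiplicative (ZMod 2) :=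
    { toFun := fun g => Multiplicative.ofAdd (κ g ω')
      map_one' := by
        show Multiplicative.ofAdd (κ 1 ω') = 1
        rw [k_one κ hκ]
        rfl
      map_mul' := by
        intro a b
        rw [← ofAdd_add]
        show Multiplicative.ofAdd (κ ((a : G) * b) ω') = _
        rw [hκ, b.2.2] }
  have h1 := hom_one φ D τ {e ω₀, e ω'} (fun d hd x hx => by
      rcases hx with rfl | hx
      · rw [he, hd.1.1]
      · rw [Set.mem_singleton_iff] at hx
        subst hx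
        rw [he, hd.2]) (fun d _ => by rw [← hφ]; exact ⟨d, rfl⟩)
    (fun σ hσ hσF => by
      rw [← hφ] at hσ
      obtain ⟨d, rfl⟩ := hσ
      have h2 : d • ω₀ = ω₀ := by
        apply e.injective
        rw [← he]
        exact hσF _ (Or.inl rfl)
      have h3 : d • ω' = ω' := by
        apply e.injective
        rw [← he]
        exact hσF _ (Or.inr rfl)
      have hd : ∀ a : ZMod 2, a = 0 ∨ a = 1 := by decide
      rcases hd (κ d ω₀) with h | h
      · exact ⟨d, ⟨⟨h2, h⟩, h3⟩, rfl⟩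
      · refine ⟨d * n₁, ⟨⟨by rw [mul_smul, hn₁, h2], ?_⟩, by rw [mul_smul, hn₁, h3]⟩, ?_⟩
        · rw [hκ, hn₁, h, hn]
          decide
        · rw [map_mul, (triv_iff e φ he n₁).2 hn₁, mul_one]) (fun d hd => by
      have h2 := hV (κ d) ⟨d, (triv_iff e φ he d).1 hd, rfl⟩ ω' ω₀
      show Multiplicative.ofAdd (κ d ω') = 1
      rw [h2, d.2.1.2]
      rfl) ⟨g, ⟨⟨hg, hg0⟩, hg'⟩⟩
  exact h1

include hφ he in
/-- **(6)**: the section off `ω₀` fixed by `B` -/
theorem exists_section [Finite G] (hm : 9 ≤ m) (hV : ∀ v ∈ VV κ hκ, ∀ i j, v i = v j) {n₁ : G}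
    (hn₁ : ∀ ω : Ω, n₁ • ω = ω) (hn : ∀ ω, κ n₁ ω = 1) (ω₀ : Ω) :
    ∃ f : Ω → ZMod 2, ∀ g : G, g • ω₀ = ω₀ → κ g ω₀ = 0 → ∀ ω', ω' ≠ ω₀ → f (g • ω') = f ω' + κ g ω' := by
  classical
  let _ : Fintype Ω := Fintype.ofEquiv _ e.symm
  have hcard : 3 ≤ Fintype.card Ω := by
    rw [Fintype.card_congr e, Fintype.card_fin]
    omega
  obtain ⟨ω₁, h01⟩ : ∃ ω₁, ω₁ ≠ ω₀ := by
    by_contra hcon
    push Not at hcon
    have h1 : Fintype.card Ω ≤ ({ω₀} : Finset Ω).card := Finset.card_le_card fun x _ => by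
      rw [Finset.mem_singleton]
      exact hcon x
    rw [Finset.card_singleton] at h1
    omega
  have hb : ∀ ω', ω' ≠ ω₀ → ∃ b : G, b • ω₀ = ω₀ ∧ κ b ω₀ = 0 ∧ b • ω₁ = ω' := by
    intro ω' hω'
    obtain ⟨g, hg0, hg1⟩ : ∃ g : G, g • ω₀ = ω₀ ∧ g • ω₁ = ω' := by
      by_cases h : ω' = ω₁
      · exact ⟨1, one_smul _ _, by rw [one_smul, h]⟩
      · obtain ⟨z, hz⟩ : ∃ z, z ∉ ({ω₀, ω₁, ω'} : Finset Ω) := by
          by_contra hcon
          push Not at hcon
          have h1 : Fintype.card Ω ≤ ({ω₀, ω₁, ω'} : Finset Ω).card := Finset.card_le_card fun x _ => hcon x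
          have h2 := Finset.card_le_three (a := ω₀) (b := ω₁) (c := ω')
          rw [Fintype.card_congr e, Fintype.card_fin] at h1
          omega
        simp only [Finset.mem_insert, Finset.mem_singleton, not_or] at hz
        obtain ⟨g, g1, -, -, g4⟩ := exists_three e φ hφ he (Ne.symm h) (Ne.symm hz.2.1) (Ne.symm hz.2.2)
        exact ⟨g, g4 ω₀ h01.symm hω'.symm (Ne.symm hz.1), g1⟩
    have hd : ∀ a : ZMod 2, a = 0 ∨ a = 1 := by decide
    rcases hd (κ g ω₀) with h | h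
    · exact ⟨g, hg0, h, hg1⟩
    · refine ⟨g * n₁, by rw [mul_smul, hn₁, hg0], ?_, by rw [mul_smul, hn₁, hg1]⟩
      rw [hκ, hn₁, h, hn]
      decide
  choose! b hb0 hbk hb1 using hb
  refine ⟨fun ω' => κ (b ω') ω₁, fun g hg hgk ω' hω' => ?_⟩
  have hgω' : g • ω' ≠ ω₀ := by
    intro h
    rw [← hg] at h
    exact hω' (smul_left_cancel g h)
  have h1 := case_three_fix e φ hφ he κ hκ hV hn₁ hn ω₀ ω₁ ((b (g • ω'))⁻¹ * (g * b ω')) (by
    rw [mul_smul, mul_smul, hb0 _ hω', hg, inv_smul_eq_iff, hb0 _ hgω']) (by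
    rw [mul_smul, mul_smul, hb1 _ hω', inv_smul_eq_iff, hb1 _ hgω']) (by
    rw [hκ, hκ, mul_smul, hb0 _ hω', hg, hgk, hbk _ hω']
    have h2 := k_inv κ hκ (b (g • ω')) ω₀
    rw [hb0 _ hgω', hbk _ hgω'] at h2
    rw [h2]
    rfl)
  rw [hκ, hκ, mul_smul, hb1 _ hω'] at h1
  have h2 := k_inv κ hκ (b (g • ω')) ω₁
  rw [hb1 _ hgω'] at h2
  rw [h2] at h1
  have h3 : ∀ a b c : ZMod 2, a + (b + c) = 0 → a = c + b := by decide
  exact h3 _ _ _ h1

include hφ he in
/-- **(6)** -/
theorem case_three [Finite G] (hm : 9 ≤ m) (hV : ∀ v ∈ VV κ hκ, ∀ i j, v i = v j) {n₁ : G}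
    (hn₁ : ∀ ω : Ω, n₁ • ω = ω) (hn : ∀ ω, κ n₁ ω = 1)
    (hfam : ∀ (f : Ω → ZMod 2) (c : Ω → Bool), ∃ S : Subgroup G, ¬ 5 ∣ S.index ∧
      ∀ g ∈ S, ∀ ω, f (g • ω) = f ω + κ g ω ∧ c (g • ω) = c ω) : False := by
  classical
  let ω₀ : Ω := e.symm ⟨4, by omega⟩
  have hω₀ : ∀ ω, ω = ω₀ ↔ (e ω : ℕ) = 4 := by
    intro ω
    rw [e.eq_symm_apply, Fin.ext_iff]
  obtain ⟨f, hf⟩ := exists_section e φ hφ he κ hκ hm hV hn₁ hn ω₀
  obtain ⟨S, hS, hSf⟩ := hfam (fun ω => if (e ω : ℕ) < 4 then f ω else if ω = ω₀ then 0 else f ω + 1)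
    (fun ω => decide (ω = ω₀))
  have hcol : ∀ g ∈ S, ∀ i : Fin m, col m 5 (φ g i) = col m 5 i := by
    intro g hg i
    obtain ⟨ω, rfl⟩ := e.surjective i
    rw [he]
    have h0 : g • ω₀ = ω₀ := by
      have h1 := (hSf g hg ω₀).2
      simpa using h1
    have hk0 : κ g ω₀ = 0 := by
      have h1 := (hSf g hg ω₀).1
      have h2 : ¬ (e ω₀ : ℕ) < 4 := by rw [(hω₀ ω₀).1 rfl]; omega
      rw [h0] at h1
      exact left_eq_add.1 h1
    by_cases hω : ω = ω₀
    · rw [hω, h0]
    have hgω : g • ω ≠ ω₀ := by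
      intro h
      rw [← h0] at h
      exact hω (smul_left_cancel g h)
    have h1 := (hSf g hg ω).1
    have h2 := hf g h0 hk0 ω hω
    have h3 : (e (g • ω) : ℕ) ≠ 4 := fun h => hgω ((hω₀ _).2 h)
    have h4 : (e ω : ℕ) ≠ 4 := fun h => hω ((hω₀ _).2 h)
    simp only [if_neg hω, if_neg hgω] at h1
    rw [h2] at h1
    have h5 : ((e (g • ω) : ℕ) < 4) ↔ ((e ω : ℕ) < 4) := by
      have hd : ∀ a b : ZMod 2, a + b ≠ a + 1 + b := by decide
      have hd' : ∀ a b : ZMod 2, a + b + 1 ≠ a + b := by decide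
      constructor
      · intro h
        by_contra h'
        rw [if_pos h, if_neg h'] at h1
        exact hd _ _ h1
      · intro h
        by_contra h'
        rw [if_neg h', if_pos h] at h1
        exact hd' _ _ h1
    simp only [col]
    have e1 : (5 - 1 : ℕ) = 4 := rfl
    rw [e1, if_neg h3, if_neg h4]
    simp only [h5]
  have hle : S ≤ (colStab φ.range (col m 5)).comap φ.rangeRestrict := by
    intro g hg
    rw [Subgroup.mem_comap, mem_colStab]
    intro i
    exact hcol g hg i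
  have h1 : ((colStab φ.range (col m 5)).comap φ.rangeRestrict).index ∣ S.index := Subgroup.index_dvd_of_le hle
  rw [Subgroup.index_comap_of_surjective _ φ.rangeRestrict_surjective,
    index_of_alternating φ.range hφ.ge (col m 5) (Or.inr ⟨swap ⟨0, by omega⟩ ⟨1, by omega⟩, sign_swap (by simp), ?_⟩)] at h1
  · exact hS ((dvd_index_col (by norm_num) (by omega)).trans h1)
  · intro i
    by_cases h0 : i = ⟨0, by omega⟩
    · rw [h0, swap_apply_left]
      simp [col]
    · by_cases h2 : i = ⟨1, by omega⟩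
      · rw [h2, swap_apply_right]
        simp [col]
      · rw [swap_apply_of_ne_of_ne h0 h2]

include hφ he hκ in
/-- **(5)-(6)** -/
theorem core_of [Finite G] [Finite Ω] [IsPretransitive G Ω] (hm : 9 ≤ m) (h1 : ∃ g ω, g • ω = ω ∧ κ g ω = 1)
    (hN : ∀ N : Subgroup G, N.Normal → (∀ g : G, (∀ ω : Ω, g • ω = ω ∧ κ g ω = 0) → g ∈ N) → N ≠ ⊤ → 5 ∣ N.index)
    (hfam : ∀ (f : Ω → ZMod 2) (c : Ω → Bool), ∃ S : Subgroup G, ¬ 5 ∣ S.index ∧
      ∀ g ∈ S, ∀ ω, f (g • ω) = f ω + κ g ω ∧ c (g • ω) = c ω) :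
    ∀ g, ∃ h, (∀ ω : Ω, κ h ω = 0) ∧ φ h = φ g := by
  by_cases hc : ∃ v ∈ VV κ hκ, ∃ i j, v i ≠ v j
  · obtain ⟨v, hv, i, j, hij⟩ := hc
    exact case_one e φ hφ he κ hκ hm hN hv hij
  exfalso
  push Not at hc
  obtain ⟨g, ω, hg, hk⟩ := h1
  by_cases hV : ∀ v ∈ VV κ hκ, v = 0
  · have h2 := case_two e φ hφ he κ hκ hV ω g hg
    rw [h2] at hk
    exact absurd hk (by decide)
  · push Not at hV
    obtain ⟨v, hv, hv0⟩ := hV
    have hv1 : ∀ ω, v ω = 1 := by
      intro ω
      have hd : ∀ a : ZMod 2, a = 0 ∨ a = 1 := by decide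
      rcases hd (v ω) with h | h
      · exfalso
        apply hv0
        funext x
        rw [hc v hv x ω, h]
        rfl
      · exact h
    obtain ⟨n₁, hn₁, rfl⟩ := hv
    exact case_three e φ hφ he κ hκ hm hc hn₁ hv1 hfam

end

end Cfsg.Agent.H600.RIM.Exc
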