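import Mathlib
import Cfsg.Agent.H229.RIM.Comp
import Cfsg.Agent.H229.NX.Label
import Cfsg.Agent.H665.RIM.Defs

/-!
# S4816, case B, several components `A6`, `p = 5`, `6 ∣ |Z(L)|` (box EXC): the interfaces (helper600)

* `Cj g ψ ψ'`: `ψ'` is the conjugate of `ψ` by `g`; `IrrO Z l E ψ`: irreducible over `l`.
* `PartA6` (1)-(2): the four characters of `L ω` over `l`, the group `T₀` of index two in `T = N_G(L ω)`.
* `PartY` (3): `Y` is the set of elements acting on each `L ω` as an inner automorphism.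
* `PartX`: the product characters.
* `PartM` (4): the action on `Ω` is `A_m`, `m ≥ 9`.
* `PartC` (4)-(6): the permutation group core (cocycle form).
* `PartT`: the final triple step.
-/

set_option autoImplicit false
set_option linter.unusedSectionVars false

open Cfsg

namespace Cfsg.Agent.H600.RIM.Exc

open Cfsg.Agent.H229.RIM Cfsg.Agent.H229.NX MulAction Cfsg.Agent.H672 Cfsg.Agent.H586.GW

universe u

/-- `ψ'` is the conjugate of `ψ` by `g` -/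
def Cj {G : Type*} [Group G] {E F : Subgroup G} (g : G) (ψ : E → ℂ) (ψ' : F → ℂ) : Prop :=
  ∀ (x : E) (y : F), (y : G) = g * x * g⁻¹ → ψ' y = ψ x

/-- irreducible over `l` -/
def IrrO {G : Type*} [Group G] (Z : Subgroup G) (l : Z →* ℂˣ) (E : Subgroup G) (ψ : E → ℂ) : Prop :=
  IsIrrCharacter E ψ ∧ ∀ (x : G) (hx : x ∈ E) (hz : x ∈ Z), ψ ⟨x, hx⟩ = ψ 1 * l ⟨x, hz⟩

/-- The output of (1)-(2): `T₀` = the elements of `T` acting on `E` as inner automorphisms has index two in `T`, it is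
the stabilizer in `T` of `a` and of `b`, `a` and `b` are not conjugate in `T`. -/
structure Pair4 {G : Type*} [Group G] (Z : Subgroup G) (l : Z →* ℂˣ) (E T T₀ : Subgroup G) (a b : E → ℂ) : Prop where
  le : T₀ ≤ T
  idx : T₀.relIndex T = 2
  inn : ∀ g ∈ T, (g ∈ T₀ ↔ ∃ x ∈ E, ∀ y ∈ E, g * y * g⁻¹ = x * y * x⁻¹)
  ia : IrrO Z l E a
  ib : IrrO Z l E b
  fa : ∀ g ∈ T, (Cj g a a ↔ g ∈ T₀)
  fb : ∀ g ∈ T, (Cj g b b ↔ g ∈ T₀)
  ab : ∀ g ∈ T, ¬ Cj g a b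

/-- **(1)-(2)** (helper546) -/
def PartA6 : Prop :=
  ∀ {G : Type u} [Group G] [Finite G] (Z : Subgroup G) (l : Z →* ℂˣ) (E T : Subgroup G),
    Z ≤ Subgroup.center G → Function.Injective l → E ≤ T → (∀ g ∈ T, ∀ x ∈ E, g * x * g⁻¹ ∈ E) →
    commutator E = ⊤ → (∀ x : E, x ∈ Subgroup.center E ↔ (x : G) ∈ Z) →
    IsSimpleGroup (E ⧸ Subgroup.center E) → Nat.card (E ⧸ Subgroup.center E) = 360 →
    6 ∣ Nat.card (Subgroup.center E) → ¬ 5 ∣ Nat.card (Subgroup.center E) →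
    (∀ ψ : E → ℂ, IrrO Z l E ψ → ¬ 5 ∣ charDegree ψ) →
    (∀ ψ : Fin 3 → E → ℂ, (∀ i, IrrO Z l E (ψ i)) → ∃ i j, i ≠ j ∧ ∃ g ∈ T, Cj g (ψ i) (ψ j)) →
    ∃ (T₀ : Subgroup G) (a b : E → ℂ), Pair4 Z l E T T₀ a b

/-- **(3)** (helper724) -/
def PartY : Prop :=
  ∀ {p : ℕ} {G : Type u} [Group G] [Finite G] {Z Y : Subgroup G} {l : Z →* ℂˣ} {Ω : Type u} [Finite Ω] [MulAction G Ω]
    {L : Ω → Subgroup G}, Comp p Z Y l L → ∀ g : G, g ∈ Y ↔ ∀ ω, ∃ x ∈ L ω, ∀ y ∈ L ω, g * y * g⁻¹ = x * y * x⁻¹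

/-- **(3')** the product character: its stabilizer is the stabilizer of the family (helper724) -/
def PartX : Prop :=
  ∀ {p : ℕ} {G : Type u} [Group G] [Finite G] {Z Y : Subgroup G} {l : Z →* ℂˣ} {Ω : Type u} [Finite Ω] [MulAction G Ω]
    {L : Ω → Subgroup G}, Comp p Z Y l L → ∀ ψ : ∀ ω, L ω → ℂ, (∀ ω, IrrO Z l (L ω) (ψ ω)) →
    ∃ χ : Y → ℂ, IrrO Z l Y χ ∧ ∀ g : G, Cj g χ χ ↔ ∀ ω, Cj g (ψ ω) (ψ (g • ω))

/-- **(4)** (helper886): the action on `Ω` is the natural action of `A_m`, `m ≥ 9` -/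
def PartM : Prop :=
  ∀ {G Ω : Type u} [Group G] [Finite G] [MulAction G Ω] [Finite Ω] [IsPretransitive G Ω] [Nontrivial Ω],
    (∀ N : Subgroup G, N.Normal → (∀ g : G, (∀ ω : Ω, g • ω = ω) → g ∈ N) → N ≠ ⊤ → 5 ∣ N.index) →
    (∀ c : Ω → Bool, ¬ 5 ∣ (colStab G c).index) →
    ∃ (m : ℕ) (e : Ω ≃ Fin m) (φ : G →* Equiv.Perm (Fin m)), 9 ≤ m ∧ φ.range = alternatingGroup (Fin m) ∧
      ∀ g ω, φ g (e ω) = e (g • ω)

/-- **(4)-(6)** (helper600): the permutation group core; `κ` is the cocycle of the double cover of `Ω` by the pairs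
`{a_ω, a'_ω}`. -/
def PartC : Prop :=
  ∀ {G Ω : Type u} [Group G] [Finite G] [MulAction G Ω] [Finite Ω] [IsPretransitive G Ω] [Nontrivial Ω]
    (κ : G → Ω → ZMod 2), (∀ g h ω, κ (g * h) ω = κ g (h • ω) + κ h ω) → (∃ g ω, g • ω = ω ∧ κ g ω = 1) →
    (∀ N : Subgroup G, N.Normal → (∀ g : G, (∀ ω : Ω, g • ω = ω ∧ κ g ω = 0) → g ∈ N) → N ≠ ⊤ → 5 ∣ N.index) →
    (∀ (f : Ω → ZMod 2) (c : Ω → Bool), ∃ S : Subgroup G, ¬ 5 ∣ S.index ∧
      ∀ g ∈ S, ∀ ω, f (g • ω) = f ω + κ g ω ∧ c (g • ω) = c ω) →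
    ∃ (f : Ω → ZMod 2) (m : ℕ) (φ : G →* Equiv.Perm (Fin m)), 9 ≤ m ∧ φ.range = alternatingGroup (Fin m) ∧
      (∀ g, ∃ h, (∀ ω, f (h • ω) = f ω + κ h ω) ∧ φ h = φ g) ∧
      ∀ h, (∀ ω, f (h • ω) = f ω + κ h ω) → φ h = 1 → ∀ ω, h • ω = ω ∧ κ h ω = 0

/-- **the triple step** (helper322, helper159): over an invariant character `χ` of degree prime to `p` of the kernel of an
epimorphism onto a non-abelian simple group `S` with `NBall p S` and a character of degree divisible by `p` there is a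
character of relative degree divisible by `p`. -/
def PartT : Prop :=
  ∀ {p : ℕ} {S T : Type u} [Group S] [Finite S] [IsSimpleGroup S] [Group T] [Finite T], p.Prime →
    ¬ IsMulCommutative S → Cfsg.Agent.H665.RIM.NBall p S → (∃ θ : S → ℂ, IsIrrCharacter S θ ∧ p ∣ charDegree θ) →
    ∀ (π : T →* S), Function.Surjective π → ∀ (N : Subgroup T) [N.Normal], N = π.ker →
    ∀ χ : N → ℂ, IsIrrCharacter N χ → (∀ g : T, Cj g χ χ) → ¬ p ∣ charDegree χ → RelP p N.subtype χ → False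

end Cfsg.Agent.H600.RIM.Exc
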