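import Cfsg.Agent.H886.Spin.Class
import Cfsg.Agent.H113.NormTwoChar

/-!
# Existence of the spin characters with a given label (S4816, RIM-ALT, helper600)

For every strict partition `L` of `n` the double cover of `A_n` has a faithful irreducible character whose degree is
`X (1^n) L` up to powers of 2 (converse of helper886's `exists_label`).
-/

set_option autoImplicit false
set_option linter.unusedSectionVars false

namespace Cfsg.Agent.H600.RIM

open Finset Cfsg Cfsg.Agent.H614 Cfsg.Agent.H614.Spin Cfsg.Agent.Characters.Core Cfsg.Agent.H886.Spin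
open scoped ComplexConjugate

/-- **Existence**, abstract form (adapted from `H886.Spin.classify`). -/
theorem exists_abs {n : ℕ} (hn : 2 ≤ n) {T : Type*} [Group T] [Fintype T]
    {P : T →* Equiv.Perm (Fin n)} {z : T} {b : T → ℂ} {c₀ : ℕ}
    (surj : Function.Surjective P) (z_ne : z ≠ 1) (ker : ∀ x, P x = 1 ↔ x = 1 ∨ x = z)
    (z_comm : ∀ x, x * z = z * x) (neg : ∀ x, b (z * x) = -b x)
    (sq : ∀ x, (∀ i ∈ ty (P x), Odd i) → b x * conj (b x) = 2 ^ (Multiset.card (ty (P x)) + c₀))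
    (van : ∀ x, ¬ (∀ i ∈ ty (P x), Odd i) → b x = 0)
    (divT : ∀ (m : ℕ) (a : Fin m → ℕ), ∑ j, a j = n → ∃ θ : T → ℂ, IsCharacter T θ ∧
      ∀ x, b x * cnt (P x) a = 2 ^ ((#{j | a j ≠ 0} + c₀) / 2) * θ x)
    (H : Subgroup T) (hH : H = (alternatingGroup (Fin n)).comap P) [Fintype H]
    (divH : ∀ (m : ℕ) (a : Fin m → ℕ), ∑ j, a j = n → ∃ θ : H → ℂ, IsCharacter H θ ∧
      ∀ x : H, b (x : T) * cnt (P (x : T)) a = 2 ^ ((#{j | a j ≠ 0} + (1 + c₀)) / 2) * θ x)
    (hz : z ∈ H) {L : List ℤ} (hL : Strict' L) (hLs : L.sum = n) :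
    ∃ χ : H → ℂ, IsIrrCharacter H χ ∧ χ ⟨z, hz⟩ = - χ 1 ∧ ∃ j k : ℕ, ∃ e : ℂ, (e = 1 ∨ e = -1) ∧
      (2 : ℂ) ^ j * (χ 1 + χ 1) = e * 2 ^ k * (b 1 * (X (ty (P 1)) L : ℂ)) := by
  classical
  have hn0 : Nontrivial (Fin n) := Fin.nontrivial_iff_two_le.mpr hn
  have hindex : H.index = 2 := by
    rw [hH, Subgroup.index_comap_of_surjective _ surj, alternatingGroup.index_eq_two]
  have hnorm : H.Normal := Subgroup.normal_of_index_eq_two hindex
  have hodd : ∀ x : T, (∀ i ∈ ty (P x), Odd i) → x ∈ H := by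
    intro x hx
    rw [hH, Subgroup.mem_comap]; exact sign_of_odd hx
  have hpos : ∀ a ∈ L, 0 < a := hL.2
  have hnormT := norm_sum surj z_ne ker sq van hL hLs
  have hcardT := card_T surj z_ne ker
  have hcardH : (Nat.card T : ℂ) = Nat.card H * 2 := by
    have := H.card_mul_index
    rw [hindex] at this
    exact_mod_cast this.symm
  have hnf : ((n.factorial : ℕ) : ℂ) ≠ 0 := by exact_mod_cast n.factorial_ne_zero
  have hcH : (Nat.card H : ℂ) = n.factorial := by
    have h := hcardT.symm.trans hcardH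
    linear_combination -(1 / 2 : ℂ) * h
  have hsumH : ∀ F : T → ℂ, (∀ x, x ∉ H → F x = 0) → ∑ x : T, F x = ∑ x : H, F x := by
    intro F hF
    rw [← Finset.sum_filter_of_ne (p := fun g => g ∈ H)]
    · rw [← Finset.sum_subtype (univ.filter fun g => g ∈ H) (p := fun g => g ∈ H) (by simp) F]
    · intro g _ hg
      by_contra hgN
      exact hg (hF g hgN)
  have hvan : ∀ x : T, x ∉ H → b x * (X (ty (P x)) L : ℂ) = 0 := by
    intro x hx
    rw [van x (fun h => hx (hodd x h)), zero_mul]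
  have hPz : P z = 1 := (ker z).2 (Or.inr rfl)
  have hbz : b z * (X (ty (P z)) L : ℂ) = -(b 1 * (X (ty (P 1)) L : ℂ)) := by
    have := neg 1
    rw [mul_one] at this
    rw [this, hPz, map_one, neg_mul]
  have h2ne : ∀ k : ℕ, (2 : ℂ) ^ k ≠ 0 := fun k => pow_ne_zero _ two_ne_zero
  obtain ⟨t, ht⟩ : ∃ t : T, t ∉ H := by
    by_contra hno
    push Not at hno
    have : H = ⊤ := (Subgroup.eq_top_iff' H).2 hno
    rw [this, Subgroup.index_top] at hindex
    omega
  rcases Nat.even_or_odd (L.length + c₀) with hpar | hpar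
  · -- the quotient is an irreducible character of `T`
    obtain ⟨θ, hθ1, hθ2⟩ := exists_theta P b c₀ divT hpos
    obtain ⟨k, hk⟩ := hpar
    have hk2 : (L.length + c₀) / 2 = k := by omega
    rw [hk2] at hθ2
    have hθn : classInner θ θ = 1 := by
      rw [classInner_def, hcardT]
      have h3 : (2 : ℂ) ^ k * (2 : ℂ) ^ k * ∑ g : T, θ g * conj (θ g) =
          2 * n.factorial * 2 ^ (L.length + c₀) := by
        rw [← hnormT, Finset.mul_sum]
        refine Finset.sum_congr rfl fun x _ => ?_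
        rw [hθ2 x, map_mul, map_pow, Complex.conj_ofNat]; ring
      rw [hk, pow_add] at h3
      have h4 : ∑ g : T, θ g * conj (θ g) = 2 * n.factorial := by
        refine mul_left_cancel₀ (mul_ne_zero (h2ne k) (h2ne k)) ?_
        rw [h3]; ring
      rw [h4]
      exact inv_mul_cancel₀ (mul_ne_zero two_ne_zero hnf)
    have hθvan : ∀ x : T, x ∉ H → θ x = 0 := by
      intro x hx
      have := hθ2 x
      rw [hvan x hx] at this
      exact (mul_eq_zero.mp this.symm).resolve_left (h2ne k)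
    have hθz : θ z = -θ 1 := by
      refine mul_left_cancel₀ (h2ne k) ?_
      rw [← hθ2, hbz, hθ2]; ring
    -- the irreducible character `ψ = ± θ`
    obtain ⟨e, he, ψ, hψ, hψe⟩ : ∃ e : ℂ, (e = 1 ∨ e = -1) ∧ ∃ ψ : T → ℂ, IsIrrCharacter T ψ ∧ ∀ x, ψ x = e * θ x := by
      rcases isIrr_of_generalized hθ1 hθn with hirr | hirr
      · exact ⟨1, Or.inl rfl, θ, hirr, fun x => (one_mul _).symm⟩
      · exact ⟨-1, Or.inr rfl, -θ, hirr, fun x => by rw [Pi.neg_apply]; ring⟩
    have hres : IsCharacter H (fun x : H => ψ x) := Characters.Clifford.isCharacter_restrict H (isIrr_isCharacter hψ)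
    have hres0 : (fun x : H => ψ x) ≠ 0 := by
      intro h0
      have h1 := congrFun h0 1
      exact isIrr_apply_one_ne_zero hψ h1
    obtain ⟨χ, hχ, hin⟩ := Cfsg.Agent.H113.NormTwoChar.exists_constituent hres hres0
    have hsum := restrict_sum H hindex hψ (fun g hg => by rw [hψe, hθvan g hg, mul_zero]) hχ hin ht
    have h1 : ψ 1 = χ 1 + χ 1 := by
      have h := hsum 1
      rwa [map_one] at h
    have hzc : (MulAut.conjNormal t : MulAut H) ⟨z, hz⟩ = ⟨z, hz⟩ := by
      apply Subtype.ext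
      rw [MulAut.conjNormal_apply]
      show t * z * t⁻¹ = z
      rw [z_comm, mul_inv_cancel_right]
    have h2 : ψ z = χ ⟨z, hz⟩ + χ ⟨z, hz⟩ := by
      have h := hsum ⟨z, hz⟩
      rwa [hzc] at h
    refine ⟨χ, hχ, ?_, k, 0, e, he, ?_⟩
    · have h3 : ψ z = -ψ 1 := by rw [hψe, hψe, hθz]; ring
      rw [h1, h2] at h3
      linear_combination (1 / 2 : ℂ) * h3
    · rw [← h1, hψe, hθ2 1]; ring
  · -- the quotient is an irreducible character of `H`
    obtain ⟨θ, hθ1, hθ2⟩ := exists_theta (fun x : H => P (x : T)) (fun x : H => b (x : T)) (1 + c₀)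
      divH hpos
    obtain ⟨k, hk⟩ := hpar
    have hk2 : (L.length + (1 + c₀)) / 2 = k + 1 := by omega
    rw [hk2] at hθ2
    have hθn : classInner θ θ = 1 := by
      rw [classInner_def, hcH]
      have h3 : (2 : ℂ) ^ (k + 1) * (2 : ℂ) ^ (k + 1) * ∑ g : H, θ g * conj (θ g) =
          2 * n.factorial * 2 ^ (L.length + c₀) := by
        rw [← hnormT, hsumH, Finset.mul_sum]
        · refine Finset.sum_congr rfl fun x _ => ?_
          rw [hθ2 x, map_mul, map_pow, Complex.conj_ofNat]; ring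
        · intro x hx
          rw [hvan x hx, zero_mul]
      rw [hk] at h3
      have h4 : ∑ g : H, θ g * conj (θ g) = n.factorial := by
        refine mul_left_cancel₀ (mul_ne_zero (h2ne (k + 1)) (h2ne (k + 1))) ?_
        rw [h3]; ring
      rw [h4]
      exact inv_mul_cancel₀ hnf
    have hθz : θ ⟨z, hz⟩ = -θ 1 := by
      refine mul_left_cancel₀ (h2ne (k + 1)) ?_
      have h1 := hθ2 ⟨z, hz⟩
      have h2 := hθ2 1
      simp only [Subgroup.coe_one] at h2
      rw [← h1, mul_neg, ← h2]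
      exact hbz
    obtain ⟨e, he, ψ, hψ, hψe⟩ : ∃ e : ℂ, (e = 1 ∨ e = -1) ∧ ∃ ψ : H → ℂ, IsIrrCharacter H ψ ∧ ∀ x, ψ x = e * θ x := by
      rcases isIrr_of_generalized hθ1 hθn with hirr | hirr
      · exact ⟨1, Or.inl rfl, θ, hirr, fun x => (one_mul _).symm⟩
      · exact ⟨-1, Or.inr rfl, -θ, hirr, fun x => by rw [Pi.neg_apply]; ring⟩
    refine ⟨ψ, hψ, by rw [hψe, hψe, hθz]; ring, k + 1, 1, e, he, ?_⟩
    have h2 := hθ2 1
    simp only [Subgroup.coe_one] at h2
    rw [hψe, h2]; ring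

end Cfsg.Agent.H600.RIM
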