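import Cfsg.Agent.H600.RIM.Exist
import Cfsg.Agent.H600.RIM.Num
import Cfsg.Agent.H665.RIM.Defs
import Cfsg.Agent.H686.Spin.Data
import Cfsg.Agent.S0892

/-!
# S4816, RIM-ALT: the double covers of the alternating groups (helper600)

`nball_alt` : `NBall p (A_n)` for `n ≥ 8`, `p` odd, `p ≤ n`, `(n, p) ≠ (8, 5)`.
-/

set_option autoImplicit false

namespace Cfsg.Agent.H600.RIM

open Finset Cfsg Cfsg.Agent.H614.Spin Cfsg.Agent.Characters.Core Cfsg.Agent.H665.RIM
open Cfsg.Agent.SporadicRecognition.AltCover Cfsg.Agent.H686.Spin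

universe u

theorem charDegree_of {G : Type u} [Group G] {χ : G → ℂ} {m : ℕ} (h : χ 1 = m) : charDegree χ = m := by
  unfold charDegree
  rw [h]
  simp

/-- the double cover of `A_n` has a faithful irreducible character of degree divisible by `p` -/
theorem exists_alt_char {n : ℕ} (hn : 5 ≤ n) {H : Type u} [Group H] [Finite H] {π : H →* alternatingGroup (Fin n)} {z : H}
    (h : IsCover π z) {L : List ℤ} (hL : Strict L) (hs : L.sum = n) {p : ℕ} (hp : p.Prime) (hp2 : p ≠ 2)
    (hd : (p : ℤ) ∣ X (Multiset.replicate n 1) L) :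
    ∃ χ : H → ℂ, IsIrrCharacter H χ ∧ χ z = -χ 1 ∧ p ∣ charDegree χ := by
  classical
  obtain ⟨T, iT, fT, P, zT, b, e, hsp, hPe, hez⟩ := exists_spinData hn h
  have := Fintype.ofFinite T
  have : Fintype ((alternatingGroup (Fin n)).comap P : Subgroup T) := Fintype.ofFinite _
  have hz : zT ∈ (alternatingGroup (Fin n)).comap P := by
    rw [Subgroup.mem_comap, (hsp.ker zT).2 (Or.inr rfl)]
    exact one_mem _
  obtain ⟨χ, hχ, hχz, j, k, ε, hε, hdeg⟩ := exists_abs (by omega) hsp.surj hsp.z_ne hsp.ker hsp.z_comm hsp.neg hsp.sq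
    hsp.van hsp.divT ((alternatingGroup (Fin n)).comap P) rfl (by
      intro m a ha
      obtain ⟨θ, h1, h2⟩ := hsp.divH m a ha
      refine ⟨θ, h1, fun x => ?_⟩
      rw [h2 x, add_assoc]) hz hL hs
  refine ⟨χ ∘ e.toMonoidHom, isIrr_comp e.toMonoidHom e.surjective hχ, ?_, ?_⟩
  · show χ (e z) = -χ (e 1)
    have h1 : e z = ⟨zT, hz⟩ := Subtype.ext hez
    rw [h1, map_one, hχz]
  · obtain ⟨m, hm, hm1⟩ := isIrr_apply_one hχ
    have h1 : charDegree (χ ∘ e.toMonoidHom) = m := by
      apply charDegree_of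
      show χ (e 1) = m
      rw [map_one, hm1]
    rw [h1]
    obtain ⟨k', hk'⟩ := hsp.one_pos
    rw [map_one, H614.ty_one, Fintype.card_fin, hk', hm1] at hdeg
    have h2 : ((p : ℕ) : ℤ) ∣ 2 ^ (j + 1) * (m : ℤ) := by
      rcases hε with rfl | rfl
      · have h3 : (2 : ℤ) ^ (j + 1) * (m : ℤ) = 2 ^ (k + k') * X (Multiset.replicate n 1) L := by
          have h6 : ((2 ^ (j + 1) * (m : ℤ) : ℤ) : ℂ) = ((2 ^ (k + k') * X (Multiset.replicate n 1) L : ℤ) : ℂ) := by
            push_cast
            rw [pow_succ, pow_add]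
            linear_combination hdeg
          exact_mod_cast h6
        rw [h3]
        exact Dvd.dvd.mul_left hd _
      · have h3 : (2 : ℤ) ^ (j + 1) * (m : ℤ) = -(2 ^ (k + k') * X (Multiset.replicate n 1) L) := by
          have h6 : ((2 ^ (j + 1) * (m : ℤ) : ℤ) : ℂ) = ((-(2 ^ (k + k') * X (Multiset.replicate n 1) L) : ℤ) : ℂ) := by
            push_cast
            rw [pow_succ, pow_add]
            linear_combination hdeg
          exact_mod_cast h6
        rw [h3, dvd_neg]
        exact Dvd.dvd.mul_left hd _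
    have h3 : p ∣ 2 ^ (j + 1) * m := by exact_mod_cast h2
    rcases hp.dvd_mul.1 h3 with h4 | h4
    · exact absurd ((Nat.prime_dvd_prime_iff_eq hp Nat.prime_two).1 (hp.dvd_of_dvd_pow h4)) hp2
    · exact h4

/-- a perfect central extension does not split -/
theorem nonsplit_of_perfect {E A : Type*} [Group E] [Group A] {π : E →* A} (hc : π.ker ≤ Subgroup.center E)
    (hperf : commutator E = ⊤) {z : E} (hz : π z = 1) (hz1 : z ≠ 1) (s : A →* E) : ¬ ∀ g, π (s g) = g := by
  intro hs
  have hcen : ∀ x : E, x * (s (π x))⁻¹ ∈ Subgroup.center E := by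
    intro x
    apply hc
    rw [MonoidHom.mem_ker, map_mul, map_inv, hs, mul_inv_cancel]
  let f : E →* E :=
    { toFun := fun x => x * (s (π x))⁻¹
      map_one' := by rw [map_one, map_one, inv_one, mul_one]
      map_mul' := fun x y => by
        have h1 : (s (π x))⁻¹ * (y * (s (π y))⁻¹) = (y * (s (π y))⁻¹) * (s (π x))⁻¹ :=
          Subgroup.mem_center_iff.1 (hcen y) _
        rw [map_mul, map_mul, mul_inv_rev]
        calc x * y * ((s (π y))⁻¹ * (s (π x))⁻¹) = x * ((y * (s (π y))⁻¹) * (s (π x))⁻¹) := by group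
          _ = x * ((s (π x))⁻¹ * (y * (s (π y))⁻¹)) := by rw [h1]
          _ = _ := by group }
  have hf : commutator E ≤ f.ker := by
    rw [commutator_def, Subgroup.commutator_le]
    intro a _ b _
    rw [MonoidHom.mem_ker, map_commutatorElement, commutatorElement_eq_one_iff_mul_comm]
    exact (Subgroup.mem_center_iff.1 (hcen b) _)
  rw [hperf] at hf
  have h1 : f z = 1 := hf (Subgroup.mem_top z)
  have h2 : z * (s (π z))⁻¹ = 1 := h1
  rw [hz, map_one, inv_one, mul_one] at h2
  exact hz1 h2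

/-- **RIM-ALT** -/
theorem nball_alt {S : Type u} [Group S] [Finite S] {n : ℕ} (hn : 8 ≤ n) (e : S ≃* alternatingGroup (Fin n)) {p : ℕ}
    (hp : p.Prime) (hp2 : p ≠ 2) (hpn : p ≤ n) (h85 : ¬ (n = 8 ∧ p = 5)) : NBall p S := by
  intro m hm2 hpm E _ _ π hsurj hcen hperf hcard l hl
  have hle := Cfsg.Agent.S0892.result n (by omega) (by omega) (by omega) π.ker hcen (by rw [hperf]; exact le_top)
    ((QuotientGroup.quotientKerEquivOfSurjective π hsurj).trans e)
  rw [hcard] at hle
  obtain rfl : m = 2 := by omega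
  -- the generator of the kernel
  obtain ⟨z, hz1, hz⟩ := (Nat.card_eq_two_iff' (1 : π.ker)).1 hcard
  have hall : ∀ x : π.ker, x = 1 ∨ x = z := fun x => by
    by_cases hx : x = 1
    · exact Or.inl hx
    · exact Or.inr (hz x hx)
  have hzz : (z : E) * z = 1 := by
    rcases hall (z * z) with h | h
    · exact congrArg Subtype.val h
    · exact absurd (mul_eq_left.1 h) hz1
  have hz1' : (z : E) ≠ 1 := fun h => hz1 (Subtype.ext h)
  have hzc : ∀ x, x * (z : E) = z * x := fun x => Subgroup.mem_center_iff.1 (hcen z.2) x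
  let π' : E →* alternatingGroup (Fin n) := e.toMonoidHom.comp π
  have hπ' : ∀ x, π' x = 1 ↔ π x = 1 := fun x => MulEquiv.map_eq_one_iff e
  have hker' : π'.ker = π.ker := by
    ext x
    exact hπ' x
  have hcov : IsCover π' (z : E) :=
    { z_ne := hz1'
      z_mul := hzz
      z_comm := hzc
      surj := e.surjective.comp hsurj
      ker := by
        intro x
        rw [hπ']
        constructor
        · intro h
          rcases hall ⟨x, MonoidHom.mem_ker.2 h⟩ with h1 | h1
          · exact Or.inl (congrArg Subtype.val h1)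
          · exact Or.inr (congrArg Subtype.val h1)
        · rintro (rfl | rfl)
          · exact map_one π
          · exact z.2
      nonsplit := fun s => nonsplit_of_perfect (hker'.le.trans hcen) hperf ((hπ' _).2 z.2) hz1' s }
  obtain ⟨L, hL, hs, hd⟩ := exists_label_dvd hn hp hp2 hpn h85
  obtain ⟨χ, hχ, hχz, hpd⟩ := exists_alt_char (by omega) hcov hL hs hp hp2 hd
  refine ⟨χ, hχ, fun x => ?_, hpd⟩
  rcases hall x with rfl | rfl
  · rw [map_one, OneMemClass.coe_one, Units.val_one, mul_one]
  · have h1 : l x * l x = 1 := by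
      rw [← map_mul]
      have : x * x = 1 := Subtype.ext hzz
      rw [this, map_one]
    have h2 : ((l x : ℂˣ) : ℂ) * (l x : ℂˣ) = 1 := by rw [← Units.val_mul, h1, Units.val_one]
    have h3 : ((l x : ℂˣ) : ℂ) = -1 := by
      rcases mul_self_eq_one_iff.1 h2 with h | h
      · exfalso
        apply hz1
        apply hl
        rw [map_one]
        exact Units.ext h
      · exact h
    rw [hχz, h3, mul_neg, mul_one]

end Cfsg.Agent.H600.RIM
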